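import Mathlib
import Cfsg.Agent.Lib.H27.Sig
import Cfsg.Agent.Lib.H66.CardMul

/-!
Factorizations `K = XY` of groups with a noncyclic elementary abelian group of coprime operators.
-/

set_option autoImplicit false
set_option linter.unusedSectionVars false

open Subgroup Cfsg H1.Coprime H1.Coprime2 H27.GenSub
open scoped Pointwise

namespace H27.Fact

variable {G : Type*} [Group G] [Finite G]

theorem card_isPGroup_le {q : ℕ} [hq : Fact q.Prime] {K T : Subgroup G} (hTK : T ≤ K)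
    (hT : IsPGroup q T) : Nat.card T ≤ q ^ (Nat.card K).factorization q := by
  obtain ⟨n, hn⟩ := IsPGroup.iff_card.mp hT
  rw [hn]
  apply Nat.pow_le_pow_right hq.out.pos
  have h1 : q ^ n ∣ Nat.card K := hn ▸ Subgroup.card_dvd_of_le hTK
  exact (Nat.Prime.pow_dvd_iff_le_factorization hq.out Nat.card_pos.ne').mp h1

theorem isSylIn_of_card_ge {q : ℕ} [hq : Fact q.Prime] {K T : Subgroup G} (hTK : T ≤ K)
    (hT : IsPGroup q T) (h : q ^ (Nat.card K).factorization q ≤ Nat.card T) : IsSylIn q K T :=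
  ⟨hTK, le_antisymm (card_isPGroup_le hTK hT) h⟩

theorem isSylIn_of_le {q : ℕ} [hq : Fact q.Prime] {K S T : Subgroup G} (hS : IsSylIn q K S)
    (hST : S ≤ T) (hTK : T ≤ K) (hT : IsPGroup q T) : IsSylIn q K T := by
  have := Sig.eq_of_isPGroup_of_isSylIn hS hST hTK hT
  rwa [← this]

/-- if `C = XY` and `Q` is a Sylow `q`-subgroup of `C` meeting `X` and `Y` in Sylow subgroups then
`Q = (Q ∩ X)(Q ∩ Y)`. -/
theorem sylow_factor {q : ℕ} [hq : Fact q.Prime] {C X Y Q : Subgroup G}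
    (hC : (C : Set G) = (X : Set G) * (Y : Set G)) (hQ : IsSylIn q C Q)
    (hX : IsSylIn q X (Q ⊓ X)) (hY : IsSylIn q Y (Q ⊓ Y)) :
    (Q : Set G) = ((Q ⊓ X : Subgroup G) : Set G) * ((Q ⊓ Y : Subgroup G) : Set G) := by
  symm
  refine Set.eq_of_subset_of_ncard_le ?_ ?_ (Set.toFinite _)
  · rintro _ ⟨x, hx, y, hy, rfl⟩
    exact mul_mem hx.1 hy.1
  · rw [← Nat.card_coe_set_eq, ← Nat.card_coe_set_eq]
    have h1 := H66.CardMul.card_mul_set_mul_card_inf (Q ⊓ X) (Q ⊓ Y)
    have h2 := H66.CardMul.card_mul_set_mul_card_inf X Y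
    rw [← hC] at h2
    have h3 : Nat.card (Q ⊓ X ⊓ (Q ⊓ Y) : Subgroup G) ≤
        q ^ (Nat.card (X ⊓ Y : Subgroup G)).factorization q :=
      card_isPGroup_le (inf_le_inf inf_le_right inf_le_right)
        (hQ.isPGroup.to_le (inf_le_left.trans inf_le_left))
    have h4 : (Nat.card (C : Set G)).factorization q +
        (Nat.card (X ⊓ Y : Subgroup G)).factorization q =
        (Nat.card X).factorization q + (Nat.card Y).factorization q := by
      have := congrArg (fun n => n.factorization q) h2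
      rw [Nat.factorization_mul Nat.card_pos.ne' Nat.card_pos.ne',
        Nat.factorization_mul Nat.card_pos.ne' Nat.card_pos.ne'] at this
      exact this
    change Nat.card Q ≤ _
    rw [hQ.2]
    rw [hX.2, hY.2, ← pow_add, ← h4, pow_add] at h1
    have h5 : q ^ (Nat.card (C : Set G)).factorization q *
        q ^ (Nat.card (X ⊓ Y : Subgroup G)).factorization q ≤
        Nat.card (((Q ⊓ X : Subgroup G) : Set G) * ((Q ⊓ Y : Subgroup G) : Set G) : Set G) *
        q ^ (Nat.card (X ⊓ Y : Subgroup G)).factorization q := by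
      rw [← h1]
      exact Nat.mul_le_mul_left _ h3
    exact Nat.le_of_mul_le_mul_right h5 (pow_pos hq.out.pos _)

/-- converse: `K = XY` can be tested on Sylow subgroups. -/
theorem factor_of_sylow {K X Y : Subgroup G} (hX : X ≤ K) (hY : Y ≤ K)
    (h : ∀ q : ℕ, q.Prime → ∃ Q, IsSylIn q K Q ∧ IsSylIn q X (Q ⊓ X) ∧ IsSylIn q Y (Q ⊓ Y) ∧
      IsSylIn q (X ⊓ Y) (Q ⊓ (X ⊓ Y)) ∧
      (Q : Set G) = ((Q ⊓ X : Subgroup G) : Set G) * ((Q ⊓ Y : Subgroup G) : Set G)) :
    (K : Set G) = (X : Set G) * (Y : Set G) := by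
  symm
  refine Set.eq_of_subset_of_ncard_le ?_ ?_ (Set.toFinite _)
  · rintro _ ⟨x, hx, y, hy, rfl⟩
    exact mul_mem (hX hx) (hY hy)
  · rw [← Nat.card_coe_set_eq, ← Nat.card_coe_set_eq]
    have h2 := H66.CardMul.card_mul_set_mul_card_inf X Y
    have h1 : Nat.card (K : Set G) * Nat.card (X ⊓ Y : Subgroup G) ∣ Nat.card X * Nat.card Y := by
      rw [← Nat.factorization_le_iff_dvd (Nat.mul_ne_zero Nat.card_pos.ne' Nat.card_pos.ne')
        (Nat.mul_ne_zero Nat.card_pos.ne' Nat.card_pos.ne')]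
      intro q
      by_cases hq : q.Prime
      swap
      · rw [Nat.factorization_eq_zero_of_not_prime _ hq,
          Nat.factorization_eq_zero_of_not_prime _ hq]
      have : Fact q.Prime := ⟨hq⟩
      obtain ⟨Q, hQ, hQX, hQY, hQXY, hQf⟩ := h q hq
      have h3 := H66.CardMul.card_mul_set_mul_card_inf (Q ⊓ X) (Q ⊓ Y)
      rw [← hQf] at h3
      have h4 : Q ⊓ X ⊓ (Q ⊓ Y) = Q ⊓ (X ⊓ Y) := by
        rw [← inf_inf_distrib_left]
      rw [h4, hQXY.2, hQX.2, hQY.2] at h3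
      change Nat.card Q * _ = _ at h3
      rw [hQ.2, ← pow_add, ← pow_add] at h3
      have h5 := Nat.pow_right_injective hq.two_le h3
      rw [Nat.factorization_mul Nat.card_pos.ne' Nat.card_pos.ne',
        Nat.factorization_mul Nat.card_pos.ne' Nat.card_pos.ne']
      exact h5.le
    have h3 := Nat.le_of_dvd (Nat.mul_pos Nat.card_pos Nat.card_pos) h1
    rw [← h2] at h3
    exact Nat.le_of_mul_le_mul_right h3 Nat.card_pos

/-- the `q`-group case -/
theorem factor_nilpotent (p : ℕ) [hp : Fact p.Prime] (A Q X Y : Subgroup G)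
    (hA : IsElementaryAbelian p A) (hA2 : p ^ 2 ≤ Nat.card A) (hAQ : A ≤ normalizer (Q : Set G))
    (hQ : ¬ p ∣ Nat.card Q) (hnil : Group.IsNilpotent Q) (hX : X ≤ Q) (hY : Y ≤ Q)
    (hfac : ∀ a ∈ A, a ≠ 1 → ((Q ⊓ centralizer {a} : Subgroup G) : Set G) ⊆
      (X : Set G) * (Y : Set G)) :
    (Q : Set G) = (X : Set G) * (Y : Set G) := by
  obtain ⟨N, ⟨hNQ, hQN, hAN, hNXY⟩, hmax⟩ := (Set.toFinite {N : Subgroup G | N ≤ Q ∧
    Q ≤ normalizer (N : Set G) ∧ A ≤ normalizer (N : Set G) ∧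
    ∀ n ∈ N, ∀ x ∈ X, ∀ y ∈ Y, n * x * y ∈ (X : Set G) * (Y : Set G)}).exists_maximal
    ⟨⊥, bot_le, by
      apply le_normalizer_of_conj_mem
      intro a _ k hk
      rw [Subgroup.mem_bot] at hk ⊢; simp [hk], by
      apply le_normalizer_of_conj_mem
      intro a _ k hk
      rw [Subgroup.mem_bot] at hk ⊢; simp [hk], by
      intro n hn x hx y hy
      rw [Subgroup.mem_bot] at hn
      rw [hn, one_mul]
      exact Set.mul_mem_mul hx hy⟩
  by_cases hQle : Q ≤ N
  · apply Set.Subset.antisymm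
    · intro g hg
      have := hNXY g (hQle hg) 1 X.one_mem 1 Y.one_mem
      simpa using this
    · rintro _ ⟨x, hx, y, hy, rfl⟩
      exact mul_mem (hX hx) (hY hy)
  exfalso
  -- the subgroup `Z` with `Z / N` central in `Q / N`
  have hn : (N.subgroupOf Q).Normal := (Subgroup.normal_subgroupOf_iff_le_normalizer hNQ).mpr hQN
  set Z : Subgroup G := ((center (Q ⧸ N.subgroupOf Q)).comap
    (QuotientGroup.mk' (N.subgroupOf Q))).map Q.subtype with hZ
  have hZQ : Z ≤ Q := Subgroup.map_subtype_le _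
  have hmemZ : ∀ z : G, z ∈ Z ↔ z ∈ Q ∧ ∀ g ∈ Q, z * g * z⁻¹ * g⁻¹ ∈ N := by
    intro z
    constructor
    · rintro ⟨⟨z, hz⟩, hz', rfl⟩
      refine ⟨hz, fun g hg => ?_⟩
      rw [SetLike.mem_coe, Subgroup.mem_comap, Subgroup.mem_center_iff] at hz'
      have h1 := hz' (QuotientGroup.mk' _ ⟨g, hg⟩)
      rw [← map_mul, ← map_mul, QuotientGroup.mk'_apply, QuotientGroup.mk'_apply,
        QuotientGroup.eq] at h1
      rw [Subgroup.mem_subgroupOf] at h1
      have h2 : (g * z)⁻¹ * (z * g) ∈ N := h1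
      have h3 := conj_mem_of_le_normalizer hQN (mul_mem hg hz) h2
      have e : g * z * ((g * z)⁻¹ * (z * g)) * (g * z)⁻¹ = z * g * z⁻¹ * g⁻¹ := by group
      rwa [e] at h3
    · rintro ⟨hz, h⟩
      refine ⟨⟨z, hz⟩, ?_, rfl⟩
      rw [SetLike.mem_coe, Subgroup.mem_comap, Subgroup.mem_center_iff]
      intro g'
      obtain ⟨⟨g, hg⟩, rfl⟩ := QuotientGroup.mk'_surjective _ g'
      rw [← map_mul, ← map_mul, QuotientGroup.mk'_apply, QuotientGroup.mk'_apply,
        QuotientGroup.eq, Subgroup.mem_subgroupOf]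
      change (g * z)⁻¹ * (z * g) ∈ N
      have h3 := conj_mem_of_le_normalizer' hQN (mul_mem hg hz) (h g hg)
      have e : (g * z)⁻¹ * (z * g * z⁻¹ * g⁻¹) * (g * z) = (g * z)⁻¹ * (z * g) := by group
      rwa [e] at h3
  have hZA : A ≤ normalizer (Z : Set G) := by
    apply le_normalizer_of_conj_mem
    intro a ha z hz
    rw [hmemZ] at hz ⊢
    refine ⟨conj_mem_of_le_normalizer hAQ ha hz.1, fun g hg => ?_⟩
    have h1 := hz.2 (a⁻¹ * g * a) (conj_mem_of_le_normalizer' hAQ ha hg)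
    have h2 := conj_mem_of_le_normalizer hAN ha h1
    have e : a * (z * (a⁻¹ * g * a) * z⁻¹ * (a⁻¹ * g * a)⁻¹) * a⁻¹ =
      a * z * a⁻¹ * g * (a * z * a⁻¹)⁻¹ * g⁻¹ := by group
    rwa [e] at h2
  have hZN : ¬ Z ≤ N := by
    intro hle
    have hne : Nontrivial (Q ⧸ N.subgroupOf Q) := by
      rw [QuotientGroup.nontrivial_iff, Ne, Subgroup.subgroupOf_eq_top]
      exact hQle
    have hnq : Group.IsNilpotent (Q ⧸ N.subgroupOf Q) := inferInstance
    have hc : Nontrivial (center (Q ⧸ N.subgroupOf Q)) :=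
      (Subgroup.nontrivial_iff_ne_bot _).mpr (Group.IsNilpotent.center_ne_bot _)
    obtain ⟨⟨c, hc⟩, hc1⟩ := exists_ne (1 : center (Q ⧸ N.subgroupOf Q))
    obtain ⟨z, rfl⟩ := QuotientGroup.mk'_surjective _ c
    apply hc1
    apply Subtype.ext
    change QuotientGroup.mk' (N.subgroupOf Q) z = 1
    rw [QuotientGroup.mk'_apply, QuotientGroup.eq_one_iff, Subgroup.mem_subgroupOf]
    exact hle ⟨z, hc, rfl⟩
  -- a fixed point
  have hZp : ¬ p ∣ Nat.card Z := fun h => hQ (h.trans (Subgroup.card_dvd_of_le hZQ))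
  have hex : ∃ a ∈ A, a ≠ 1 ∧ ¬ Z ⊓ centralizer {a} ≤ N := by
    by_contra hcon
    push Not at hcon
    exact hZN (le_of_centralizers p A Z N hA hA2 hZA hZp hcon)
  obtain ⟨a, ha, ha1, hane⟩ := hex
  apply hane
  set W := Z ⊓ centralizer {a} with hW
  have hWQ : W ≤ Q := inf_le_left.trans hZQ
  have hWN : W ≤ normalizer (N : Set G) := hWQ.trans hQN
  have hacent : A ≤ normalizer ((centralizer {a} : Subgroup G) : Set G) :=
    (ElAb.le_centralizer hA ha).trans Subgroup.le_normalizer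
  have hmem : W ⊔ N ≤ N := by
    refine hmax ?_ le_sup_right
    refine ⟨sup_le hWQ hNQ, ?_, le_normalizer_sup (le_normalizer_inf hZA hacent) hAN, ?_⟩
    · apply le_normalizer_of_conj_mem
      intro g hg w hw
      have h1 : w ∈ ((W ⊔ N : Subgroup G) : Set G) := hw
      rw [Subgroup.coe_mul_of_left_le_normalizer_right W N hWN] at h1
      obtain ⟨z, hz, n, hn', rfl⟩ := Set.mem_mul.mp h1
      have hz' := ((hmemZ z).mp hz.1).2 g⁻¹ (inv_mem hg)
      have e : g * (z * n) * g⁻¹ = z * (z⁻¹ * (g * (z * g⁻¹ * z⁻¹ * g⁻¹⁻¹) * g⁻¹) * z) *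
          (g * n * g⁻¹) := by group
      rw [e]
      refine mul_mem (mul_mem (Subgroup.mem_sup_left hz) (Subgroup.mem_sup_right ?_))
        (Subgroup.mem_sup_right (conj_mem_of_le_normalizer hQN hg hn'))
      exact conj_mem_of_le_normalizer' hQN (hWQ hz) (conj_mem_of_le_normalizer hQN hg hz')
    · intro w hw x hx y hy
      have h1 : w ∈ ((W ⊔ N : Subgroup G) : Set G) := hw
      rw [Subgroup.coe_mul_of_left_le_normalizer_right W N hWN] at h1
      obtain ⟨z, hz, n, hn', rfl⟩ := Set.mem_mul.mp h1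
      obtain ⟨x1, hx1, y1, hy1, hz1⟩ := hfac a ha ha1 ⟨hWQ hz, hz.2⟩
      obtain ⟨x2, hx2, y2, hy2, h2⟩ := hNXY n hn' x hx y hy
      -- `z n x y = z x₂ y₂ = x₂ (x₂⁻¹ z x₂ z⁻¹) z y₂`
      have hz' := ((hmemZ z).mp hz.1).2 x2⁻¹ (inv_mem (hX hx2))
      have hx1z : x1 * y1 = z := hz1
      have hx2z : x2 * y2 = n * x * y := h2
      set m := x2⁻¹ * (z * x2 * z⁻¹) with hm
      have hmN : m ∈ N := by
        have h3 := ((hmemZ z).mp hz.1).2 x2 (hX hx2)
        have h4 := conj_mem_of_le_normalizer' hQN (hX hx2) h3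
        have e : x2⁻¹ * (z * x2 * z⁻¹ * x2⁻¹) * x2 = m := by rw [hm]; group
        rwa [e] at h4
      have e : z * n * x * y = x2 * (m * x1 * (y1 * y2)) := by
        calc z * n * x * y = z * (n * x * y) := by group
          _ = z * (x2 * y2) := by rw [hx2z]
          _ = x2 * (m * z * y2) := by rw [hm]; group
          _ = x2 * (m * (x1 * y1) * y2) := by rw [hx1z]
          _ = x2 * (m * x1 * (y1 * y2)) := by group
      rw [e]
      obtain ⟨x3, hx3, y3, hy3, h5⟩ := hNXY m hmN x1 hx1 (y1 * y2) (mul_mem hy1 hy2)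
      have h5' : x3 * y3 = m * x1 * (y1 * y2) := h5
      rw [← h5', ← mul_assoc]
      exact Set.mul_mem_mul (mul_mem hx2 hx3) hy3
  exact le_sup_left.trans hmem

/-- A-invariant Sylow `q`-subgroups of `K` meet `A`-invariant subgroups normalized by `C_K(A)` in
Sylow `q`-subgroups. -/
theorem inf_isSylIn {q : ℕ} [hq : Fact q.Prime] {A K X Q : Subgroup G}
    (hAK : A ≤ normalizer (K : Set G)) (hcop : (Nat.card A).Coprime (Nat.card K))
    (hs : Group.IsSolvable A) (hXK : X ≤ K) (hAX : A ≤ normalizer (X : Set G))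
    (hCX : K ⊓ centralizer (A : Set G) ≤ normalizer (X : Set G)) (hQ : IsSylIn q K Q)
    (hAQ : A ≤ normalizer (Q : Set G)) : IsSylIn q X (Q ⊓ X) := by
  obtain ⟨T, hT, hAT⟩ := exists_invariant_sylow A X hAX
    (Nat.Coprime.coprime_dvd_right (Subgroup.card_dvd_of_le hXK) hcop) (Or.inl hs) q
  obtain ⟨R, hR, hTR, hAR⟩ := exists_invariant_sylow_ge A K hAK hcop (Or.inl hs) q T
    (hT.1.trans hXK) hT.isPGroup hAT
  obtain ⟨c, hc, e⟩ := conj_invariant_sylow A K hAK hcop (Or.inl hs) q R Q hR hQ hAR hAQ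
  have h1 : MulAut.conj c • T ≤ Q ⊓ X := by
    refine le_inf ?_ ?_
    · rw [← e]; exact Subgroup.pointwise_smul_le_pointwise_smul_iff.mpr hTR
    · rw [← H1.SZ.conj_smul_eq_of_mem_normalizer (hCX hc)]
      exact Subgroup.pointwise_smul_le_pointwise_smul_iff.mpr hT.1
  exact isSylIn_of_le (hT.smul (hCX hc)) h1 inf_le_right (hQ.isPGroup.to_le inf_le_left)

/-- S1287 -/
theorem factor (p : ℕ) [Fact p.Prime] (A K X Y : Subgroup G) (hA : IsElementaryAbelian p A)
    (hA2 : p ^ 2 ≤ Nat.card A) (hK : ¬ p ∣ Nat.card K) (hAK : A ≤ normalizer (K : Set G))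
    (hX : X ≤ K) (hY : Y ≤ K) (hAX : A ≤ normalizer (X : Set G))
    (hAY : A ≤ normalizer (Y : Set G))
    (hCX : K ⊓ centralizer (A : Set G) ≤ normalizer (X : Set G))
    (hfac : ∀ a ∈ A, a ≠ 1 → ((K ⊓ centralizer {a} : Subgroup G) : Set G) =
      ((X ⊓ centralizer {a} : Subgroup G) : Set G) *
      ((Y ⊓ centralizer {a} : Subgroup G) : Set G)) :
    (K : Set G) = (X : Set G) * (Y : Set G) := by
  have hcop := Sig.coprime_card hA hK
  have hs := Sig.solvableA hA
  have hcopY := Sig.coprime_card hA (fun h => hK (h.trans (Subgroup.card_dvd_of_le hY)))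
  have hXY : A ≤ normalizer ((X ⊓ Y : Subgroup G) : Set G) := le_normalizer_inf hAX hAY
  apply factor_of_sylow hX hY
  intro q hq
  have : Fact q.Prime := ⟨hq⟩
  obtain ⟨R, hR, hAR⟩ := exists_invariant_sylow A (X ⊓ Y) hXY
    (Nat.Coprime.coprime_dvd_right (Subgroup.card_dvd_of_le (inf_le_left.trans hX)) hcop)
    (Or.inl hs) q
  obtain ⟨T, hT, hRT, hAT⟩ := exists_invariant_sylow_ge A Y hAY hcopY (Or.inl hs) q R
    (hR.1.trans inf_le_right) hR.isPGroup hAR
  obtain ⟨Q, hQ, hTQ, hAQ⟩ := exists_invariant_sylow_ge A K hAK hcop (Or.inl hs) q T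
    (hT.1.trans hY) hT.isPGroup hAT
  have hQY : T = Q ⊓ Y := Sig.eq_of_isPGroup_of_isSylIn hT (le_inf hTQ hT.1) inf_le_right
    (hQ.isPGroup.to_le inf_le_left)
  have hSX : IsSylIn q X (Q ⊓ X) := inf_isSylIn hAK hcop hs hX hAX hCX hQ hAQ
  have hSY : IsSylIn q Y (Q ⊓ Y) := hQY ▸ hT
  refine ⟨Q, hQ, hSX, hSY, ?_, ?_⟩
  · refine isSylIn_of_le hR (le_inf (hRT.trans hTQ) hR.1) inf_le_right
      (hQ.isPGroup.to_le inf_le_left)
  · have hQp : ¬ p ∣ Nat.card Q := fun h => hK (h.trans (Subgroup.card_dvd_of_le hQ.1))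
    have hnil : Group.IsNilpotent Q := hQ.isPGroup.isNilpotent
    apply factor_nilpotent p A Q (Q ⊓ X) (Q ⊓ Y) hA hA2 hAQ hQp hnil inf_le_left inf_le_left
    intro a ha ha1
    have hCA : K ⊓ centralizer (A : Set G) ≤ centralizer {a} :=
      inf_le_right.trans (Subgroup.centralizer_le (by simpa using ha))
    have hacent : A ≤ normalizer ((centralizer {a} : Subgroup G) : Set G) :=
      (ElAb.le_centralizer hA ha).trans Subgroup.le_normalizer
    have h1 : IsSylIn q (K ⊓ centralizer {a}) (Q ⊓ (K ⊓ centralizer {a})) :=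
      inf_isSylIn hAK hcop hs inf_le_left (le_normalizer_inf hAK hacent)
        ((le_inf inf_le_left hCA).trans Subgroup.le_normalizer) hQ hAQ
    have h2 : IsSylIn q (X ⊓ centralizer {a}) (Q ⊓ (X ⊓ centralizer {a})) :=
      inf_isSylIn hAK hcop hs (inf_le_left.trans hX) (le_normalizer_inf hAX hacent)
        ((le_inf hCX (hCA.trans Subgroup.le_normalizer)).trans
          (by
            intro x hx
            exact le_normalizer_inf (B := normalizer (X : Set G) ⊓
              normalizer ((centralizer {a} : Subgroup G) : Set G)) inf_le_left inf_le_right hx))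
        hQ hAQ
    have hQYa : (Q ⊓ Y) ⊓ (Y ⊓ centralizer {a}) = Q ⊓ (Y ⊓ centralizer {a}) := by
      rw [← inf_assoc, ← inf_assoc, inf_assoc Q Y Y, inf_idem]
    have h3 : IsSylIn q (Y ⊓ centralizer {a}) (Q ⊓ (Y ⊓ centralizer {a})) := by
      rw [← hQYa]
      refine inf_isSylIn hAY hcopY hs inf_le_left (le_normalizer_inf hAY hacent)
        ((le_inf inf_le_left (inf_le_right.trans (Subgroup.centralizer_le (by simpa using ha)))).trans
          Subgroup.le_normalizer) hSY (hQY ▸ hAT)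
    have hXa : (Q ⊓ (K ⊓ centralizer {a})) ⊓ (X ⊓ centralizer {a}) =
        Q ⊓ (X ⊓ centralizer {a}) := by
      apply le_antisymm
      · exact inf_le_inf_right _ inf_le_left
      · exact le_inf (inf_le_inf_left _ (inf_le_inf_right _ hX)) inf_le_right
    have hYa : (Q ⊓ (K ⊓ centralizer {a})) ⊓ (Y ⊓ centralizer {a}) =
        Q ⊓ (Y ⊓ centralizer {a}) := by
      apply le_antisymm
      · exact inf_le_inf_right _ inf_le_left
      · exact le_inf (inf_le_inf_left _ (inf_le_inf_right _ hY)) inf_le_right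
    have h4 := sylow_factor (hfac a ha ha1) h1 (by rw [hXa]; exact h2) (by rw [hYa]; exact h3)
    intro x hx
    have hx' : x ∈ ((Q ⊓ (K ⊓ centralizer {a}) : Subgroup G) : Set G) :=
      ⟨hx.1, hQ.1 hx.1, hx.2⟩
    rw [h4, hXa, hYa] at hx'
    obtain ⟨u, hu, v, hv, rfl⟩ := Set.mem_mul.mp hx'
    exact Set.mul_mem_mul ⟨hu.1, hu.2.1⟩ ⟨hv.1, hv.2.1⟩

end H27.Fact
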