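import Cfsg.Agent.Lib.H62.PSLF
import Cfsg.Agent.Lib.H62.PSLG
import Cfsg.Agent.Lib.H25.QD
import Cfsg.Agent.Lib.H11.NormalRankOne
import Cfsg.Agent.Lib.H29.PGrp
import Cfsg.Agent.Lib.H2.NonCyclic
import Cfsg.Agent.Lib.H5.IndexTwo

set_option autoImplicit false
set_option linter.unusedVariables false
set_option linter.unusedSectionVars false
set_option linter.unusedSimpArgs false
set_option linter.style.haveILetI false

/-!
# Endgame for S3250: the Sylow 2-subgroup has no normal four-group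
-/

namespace H27.L8

open Cfsg Subgroup

universe u

variable {G : Type u} [Group G] [Finite G]

/-- no normal four-group: normal abelian subgroups are cyclic -/
theorem normal_cyclic (S : Sylow 2 G)
    (h4 : ∀ U : Subgroup G, U ≤ S → (∀ s ∈ (S : Subgroup G), ∀ u ∈ U, s * u * s⁻¹ ∈ U) → Nat.card U = 4 →
      (∀ u ∈ U, u * u = 1) → False) :
    ∀ A : Subgroup (S : Subgroup G), A.Normal → IsMulCommutative A → IsCyclic A := by
  haveI : Fact (Nat.Prime 2) := ⟨Nat.prime_two⟩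
  intro A hA hc
  by_contra hcy
  obtain ⟨q, hq, x, y, hx, hy, hy1, hxy⟩ := H2.NonCyclic.exists_pair hc hcy
  have hAp : IsPGroup 2 A := S.2.to_subgroup A
  have hq2 : q = 2 := by
    have h1 := orderOf_eq_prime hy hy1 (hp := ⟨hq⟩)
    obtain ⟨k, hk⟩ := hAp y
    have h2 : q ∣ 2 ^ k := by rw [← h1]; exact orderOf_dvd_of_pow_eq_one hk
    exact (Nat.prime_dvd_prime_iff_eq hq Nat.prime_two).1 (hq.dvd_of_dvd_pow h2)
  subst hq2
  have hcm : ∀ a ∈ A, ∀ b ∈ A, a * b = b * a := by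
    intro a ha b hb
    exact congrArg Subtype.val (hc.is_comm.comm (⟨a, ha⟩ : A) ⟨b, hb⟩)
  let V0 : Subgroup (S : Subgroup G) :=
    { carrier := {a | a ∈ A ∧ a * a = 1}
      one_mem' := ⟨one_mem _, one_mul _⟩
      mul_mem' := by
        rintro a b ⟨ha, ha2⟩ ⟨hb, hb2⟩
        refine ⟨mul_mem ha hb, ?_⟩
        calc a * b * (a * b) = a * (b * a) * b := by group
          _ = a * (a * b) * b := by rw [hcm a ha b hb]
          _ = (a * a) * (b * b) := by group
          _ = 1 := by rw [ha2, hb2, one_mul]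
      inv_mem' := by
        rintro a ⟨ha, ha2⟩
        refine ⟨inv_mem ha, ?_⟩
        rw [← mul_inv_rev, ha2, inv_one] }
  have hV0 : ∀ a, a ∈ V0 ↔ a ∈ A ∧ a * a = 1 := fun a => Iff.rfl
  set V : Subgroup G := V0.map (S : Subgroup G).subtype with hV
  have hVS : V ≤ (S : Subgroup G) := map_subtype_le _
  have hVn : ∀ s ∈ (S : Subgroup G), ∀ u ∈ V, s * u * s⁻¹ ∈ V := by
    rintro s hs _ ⟨a, ha, rfl⟩
    refine ⟨⟨s, hs⟩ * a * ⟨s, hs⟩⁻¹, ⟨hA.conj_mem a ha.1 _, ?_⟩, rfl⟩
    calc (⟨s, hs⟩ : (S : Subgroup G)) * a * ⟨s, hs⟩⁻¹ * (⟨s, hs⟩ * a * ⟨s, hs⟩⁻¹) =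
        ⟨s, hs⟩ * (a * a) * ⟨s, hs⟩⁻¹ := by group
      _ = 1 := by rw [ha.2, mul_one, mul_inv_cancel]
  have hnorm : (S : Subgroup G) ≤ normalizer (V : Set G) := by
    intro s hs
    rw [mem_normalizer_iff]
    intro v
    refine ⟨fun hv => hVn s hs v hv, fun hv => ?_⟩
    have := hVn s⁻¹ (inv_mem hs) _ hv
    rwa [show s⁻¹ * (s * v * s⁻¹) * s⁻¹⁻¹ = v by group] at this
  have hcV : 2 ^ 2 ≤ Nat.card V := by
    have h1 : Nat.card V = Nat.card V0 := card_map_of_injective (subtype_injective _)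
    rw [h1]
    have hx' : (x : (S : Subgroup G)) ∈ V0 := by
      refine ⟨x.2, ?_⟩
      rw [← pow_two]
      exact congrArg Subtype.val hx
    have hy' : (y : (S : Subgroup G)) ∈ V0 := by
      refine ⟨y.2, ?_⟩
      rw [← pow_two]
      exact congrArg Subtype.val hy
    -- card is a 2-power > 2
    have hp : IsPGroup 2 V0 := S.2.to_subgroup V0
    obtain ⟨m, hm⟩ := IsPGroup.iff_card.1 hp
    by_contra hlt
    have hm1 : m ≤ 1 := by
      by_contra h
      apply hlt
      rw [hm]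
      exact Nat.pow_le_pow_right (by norm_num) (by omega)
    have hle2 : Nat.card V0 ≤ 2 := by
      rw [hm]
      calc 2 ^ m ≤ 2 ^ 1 := Nat.pow_le_pow_right (by norm_num) hm1
        _ = 2 := by norm_num
    have hz : zpowers (y : (S : Subgroup G)) ≤ V0 := by
      rw [zpowers_le]; exact hy'
    have hcy2 : Nat.card (zpowers (y : (S : Subgroup G))) = 2 := by
      rw [Nat.card_zpowers]
      apply orderOf_eq_prime
      · exact congrArg Subtype.val hy
      · intro h; exact hy1 (Subtype.ext h)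
    have heq : zpowers (y : (S : Subgroup G)) = V0 := by
      apply Subgroup.eq_of_le_of_card_ge hz
      rw [hcy2]; exact hle2
    apply hxy
    rw [← heq] at hx'
    obtain ⟨k, hk⟩ := mem_zpowers_iff.1 hx'
    refine mem_zpowers_iff.2 ⟨k, Subtype.ext ?_⟩
    rw [← hk]; rfl
  obtain ⟨K, -, hKV, hKn, hKc⟩ := H29.PGrp.exists_normal_between (p := 2) S.2 hVS hnorm (k := 2) hcV _ ⊥ bot_le
    (by
      intro s _
      rw [mem_normalizer_iff]
      intro v
      simp only [SetLike.mem_coe, mem_bot]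
      constructor
      · rintro rfl; group
      · intro h
        have : v = s⁻¹ * (s * v * s⁻¹) * s := by group
        rw [this, h]; group)
    (by rw [Subgroup.card_bot]; norm_num) rfl
  refine h4 K (hKV.trans hVS) ?_ (by rw [hKc]; norm_num) ?_
  · intro s hs u hu
    exact (mem_normalizer_iff.1 (hKn hs) u).1 hu
  · intro u hu
    obtain ⟨a, ha, rfl⟩ := hKV hu
    exact congrArg Subtype.val ha.2

/-- the semidihedral case -/
theorem no_semi (S : Sylow 2 G) (hS : IsQuasiDihedral (S : Subgroup G))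
    (hz : ∀ z ∈ (S : Subgroup G), z ≠ 1 → (∀ s ∈ (S : Subgroup G), s * z = z * s) →
      ∀ g, g * z = z * g → g ∈ (S : Subgroup G))
    (hess : ∀ T0 : Subgroup G, T0 ≤ (S : Subgroup G) → T0 ≠ (S : Subgroup G) →
      (∀ s ∈ (S : Subgroup G), ∀ t ∈ T0, s * t * s⁻¹ ∈ T0) →
      (∀ a ∈ (S : Subgroup G), ∀ b ∈ (S : Subgroup G), a ∉ T0 → b ∉ T0 → a * b ∈ T0) →
      ∃ E : Subgroup G, E ≤ S ∧ ¬ E ≤ T0 ∧ (∀ c ∈ (S : Subgroup G), (∀ e ∈ E, c * e = e * c) → c ∈ E) ∧
        (∃ g ∈ Subgroup.normalizer (E : Set G), g ∉ (S : Subgroup G))) : False := by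
  obtain ⟨m, x, y, hcard, hd⟩ := H25.QD.exists_data hS
  set T : ℤ := 2 ^ m with hT
  let D : Subgroup (S : Subgroup G) :=
    { carrier := {s | ∃ i : ℤ, s = x ^ (2 * i) ∨ s = x ^ (2 * i) * y}
      one_mem' := ⟨0, Or.inl (by rw [mul_zero, zpow_zero])⟩
      mul_mem' := by
        rintro a b ⟨i, ha | ha⟩ ⟨j, hb | hb⟩ <;> subst ha <;> subst hb
        · exact ⟨i + j, Or.inl (by rw [← zpow_add]; congr 1; ring)⟩
        · exact ⟨i + j, Or.inr (by rw [H25.QD.mul_xy]; congr 2; ring)⟩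
        · exact ⟨i + (4 * T - 1) * j, Or.inr (by rw [H25.QD.mul_yx hd]; congr 2; ring)⟩
        · exact ⟨i + (4 * T - 1) * j, Or.inl (by rw [H25.QD.mul_yy hd]; congr 1; ring)⟩
      inv_mem' := by
        rintro a ⟨i, ha | ha⟩ <;> subst ha
        · exact ⟨-i, Or.inl (by rw [← zpow_neg]; congr 1; ring)⟩
        · exact ⟨-((4 * T - 1) * i), Or.inr (by rw [H25.QD.inv_xy hd]; congr 2; ring)⟩ }
  have hD : ∀ s, s ∈ D ↔ ∃ i : ℤ, s = x ^ (2 * i) ∨ s = x ^ (2 * i) * y := fun s => Iff.rfl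
  -- elements outside `D`
  have hout : ∀ s, s ∉ D → ∃ i : ℤ, s = x ^ (2 * i + 1) ∨ s = x ^ (2 * i + 1) * y := by
    intro s hs
    rcases H25.QD.cases hd s with ⟨i, rfl⟩ | ⟨i, rfl⟩
    · rcases Int.even_or_odd' i with ⟨j, rfl | rfl⟩
      · exact absurd ⟨j, Or.inl rfl⟩ hs
      · exact ⟨j, Or.inl rfl⟩
    · rcases Int.even_or_odd' i with ⟨j, rfl | rfl⟩
      · exact absurd ⟨j, Or.inr rfl⟩ hs
      · exact ⟨j, Or.inr rfl⟩
  have hxD : x ∉ D := by
    rintro ⟨i, hi | hi⟩
    · have h1 : x ^ (1 : ℤ) = x ^ (2 * i) := by rw [zpow_one]; exact hi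
      rw [H25.QD.zpow_eq_iff hd] at h1
      obtain ⟨c, hc⟩ := h1
      have : 1 = 2 * (i + 4 * T * c) := by linarith
      omega
    · exact H25.QD.zpow_ne hd 1 (2 * i) (by rw [zpow_one]; exact hi)
  have hmul : ∀ a, a ∉ D → ∀ b, b ∉ D → a * b ∈ D := by
    intro a ha b hb
    obtain ⟨i, ha | ha⟩ := hout a ha <;> obtain ⟨j, hb | hb⟩ := hout b hb <;> subst ha <;> subst hb
    · exact ⟨i + j + 1, Or.inl (by rw [← zpow_add]; congr 1; ring)⟩
    · exact ⟨i + j + 1, Or.inr (by rw [H25.QD.mul_xy]; congr 2; ring)⟩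
    · exact ⟨i + 2 * T + (4 * T - 1) * j, Or.inr (by rw [H25.QD.mul_yx hd]; congr 2; ring)⟩
    · exact ⟨i + 2 * T + (4 * T - 1) * j, Or.inl (by rw [H25.QD.mul_yy hd]; congr 1; ring)⟩
  have hinj := subtype_injective (S : Subgroup G)
  have hmemD : ∀ s : (S : Subgroup G), (s : G) ∈ D.map (S : Subgroup G).subtype ↔ s ∈ D := by
    intro s
    constructor
    · rintro ⟨a, ha, h⟩
      rw [← hinj h]; exact ha
    · intro h; exact ⟨s, h, rfl⟩
  obtain ⟨E, hES, hED, hcent, g, hgN, hgS⟩ := hess (D.map (S : Subgroup G).subtype) (map_subtype_le _) (by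
      intro h
      apply hxD
      rw [← hmemD, h]
      exact x.2)
    (by
      rintro s hs _ ⟨t, ht, rfl⟩
      by_cases hsD : (⟨s, hs⟩ : (S : Subgroup G)) ∈ D
      · exact ⟨⟨s, hs⟩ * t * ⟨s, hs⟩⁻¹, mul_mem (mul_mem hsD ht) (inv_mem hsD), rfl⟩
      · refine ⟨⟨s, hs⟩ * t * ⟨s, hs⟩⁻¹, hmul _ ?_ _ ?_, rfl⟩
        · intro h
          apply hsD
          have := mul_mem h (inv_mem ht)
          rwa [mul_inv_cancel_right] at this
        · intro h; exact hsD (by simpa using inv_mem h))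
    (by
      intro a ha b hb hna hnb
      refine ⟨⟨a, ha⟩ * ⟨b, hb⟩, hmul _ ?_ _ ?_, rfl⟩
      · intro h; exact hna ((hmemD _).2 h)
      · intro h; exact hnb ((hmemD _).2 h))
  set z : (S : Subgroup G) := x ^ (4 * T) with hzdef
  have hzc : ∀ s ∈ (S : Subgroup G), s * (z : G) = z * s := by
    intro s hs
    exact congrArg Subtype.val (H25.QD.z_central hd ⟨s, hs⟩)
  have hz1 : (z : G) ≠ 1 := by
    intro h; exact H25.QD.z_ne_one hd (Subtype.ext h)
  have hzE : (z : G) ∈ E := hcent z z.2 (fun e he => (hzc e (hES he)).symm)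
  have hgz : g * (z : G) ≠ z * g := fun h => hgS (hz z z.2 hz1 hzc g h)
  set t : G := g * z * g⁻¹ with ht
  have htE : t ∈ E := (mem_normalizer_iff.1 hgN _).1 hzE
  have htz : t ≠ z := by
    intro h
    apply hgz
    rw [ht, mul_inv_eq_iff_eq_mul] at h
    exact h
  have ht2 : t * t = 1 := by
    have h1 : (z : G) * z = 1 := congrArg Subtype.val (H25.QD.zz hd)
    rw [ht]
    calc g * z * g⁻¹ * (g * z * g⁻¹) = g * (z * z) * g⁻¹ := by group
      _ = 1 := by rw [h1, mul_one, mul_inv_cancel]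
  have ht1 : t ≠ 1 := by
    intro h
    apply hz1
    rw [ht] at h
    have : (z : G) = g⁻¹ * (g * z * g⁻¹) * g := by group
    rw [this, h]; group
  have htc : ∀ e ∈ E, e * t = t * e := by
    intro e he
    have h1 : g⁻¹ * e * g ∈ E := by
      have := (mem_normalizer_iff.1 (inv_mem hgN) e).1 he
      rwa [inv_inv] at this
    have h2 := hzc _ (hES h1)
    rw [ht]
    calc e * (g * z * g⁻¹) = g * (g⁻¹ * e * g * z) * g⁻¹ := by group
      _ = g * (z * (g⁻¹ * e * g)) * g⁻¹ := by rw [h2]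
      _ = g * z * g⁻¹ * e := by group
  obtain ⟨e, heE, heD⟩ := SetLike.not_le_iff_exists.1 hED
  have heS := hES heE
  have heD' : (⟨e, heS⟩ : (S : Subgroup G)) ∉ D := fun h => heD ((hmemD _).2 h)
  have htS := hES htE
  have hcomm : (⟨e, heS⟩ : (S : Subgroup G)) * ⟨t, htS⟩ = ⟨t, htS⟩ * ⟨e, heS⟩ := Subtype.ext (htc e heE)
  rcases H25.QD.cases hd (⟨t, htS⟩ : (S : Subgroup G)) with ⟨i, hi⟩ | ⟨i, hi⟩
  · have h1 : x ^ i * x ^ i = 1 := by
      rw [← hi]; exact Subtype.ext ht2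
    rw [H25.QD.sq_x_iff hd] at h1
    rcases H25.QD.mem_one_z hd h1 with h2 | h2
    · apply ht1
      rw [← hi] at h2
      exact congrArg Subtype.val h2
    · apply htz
      rw [← hi] at h2
      exact congrArg Subtype.val h2
  · have h1 : x ^ i * y * (x ^ i * y) = 1 := by
      rw [← hi]; exact Subtype.ext ht2
    rw [H25.QD.sq_xy_iff hd] at h1
    obtain ⟨k, hk⟩ := h1
    have hT0 := hd.pos
    rw [hi] at hcomm
    obtain ⟨j, hj | hj⟩ := hout _ heD'
    · rw [hj] at hcomm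
      have h2 : x ^ (2 * j + 1) * (x ^ i * y) * (x ^ (2 * j + 1))⁻¹ = x ^ i * y := by
        rw [hcomm, mul_inv_cancel_right]
      rw [H25.QD.commute_iff hd] at h2
      obtain ⟨c, hc⟩ := h2
      have : 1 = 2 * (2 * T * c - j) := by linarith
      omega
    · rw [hj] at hcomm
      have h2 : (x ^ (2 * j + 1) * y) * (x ^ i * y) * (x ^ (2 * j + 1) * y)⁻¹ = x ^ i * y := by
        rw [hcomm, mul_inv_cancel_right]
      rw [H25.QD.conj_y_xy hd, mul_left_inj, H25.QD.zpow_eq_iff hd] at h2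
      have h3 : 2 * (4 * T) ∣ (2 - 4 * T) * (2 * j + 1 - i) := by
        obtain ⟨c, hc⟩ := h2
        exact ⟨c, by linear_combination hc⟩
      rw [H25.QD.dvd_key hd _ _ dvd_rfl] at h3
      obtain ⟨c, hc⟩ := h3
      have : 1 = 2 * (2 * T * c + k - j) := by linarith
      omega

/-- the order of the field -/
theorem card_eq (S : Sylow 2 G) (hS : Nat.card ↥(S : Subgroup G) = 2 ^ 7)
    (hz : ∀ z ∈ (S : Subgroup G), z ≠ 1 → (∀ s ∈ (S : Subgroup G), s * z = z * s) →
      ∀ g, g * z = z * g → g ∈ (S : Subgroup G))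
    {F : Type} [Field F] [Fintype F] (hF : Odd (Fintype.card F)) (h3 : 3 < Fintype.card F)
    (f : G ≃* Matrix.ProjectiveSpecialLinearGroup (Fin 2) F) : Fintype.card F = 127 := by
  haveI : Fact (Nat.Prime 2) := ⟨Nat.prime_two⟩
  haveI : Nontrivial (S : Subgroup G) := by
    rw [← Finite.one_lt_card_iff_nontrivial, hS]; norm_num
  have hcn : Nontrivial (center (S : Subgroup G)) := S.2.center_nontrivial
  have hcd : 2 ∣ Nat.card (center (S : Subgroup G)) := by
    have hp : IsPGroup 2 (center (S : Subgroup G)) := S.2.to_subgroup _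
    obtain ⟨m, hm⟩ := IsPGroup.iff_card.1 hp
    rcases Nat.eq_zero_or_pos m with h0 | h0
    · rw [h0, pow_zero] at hm
      have := Finite.one_lt_card (α := center (S : Subgroup G))
      omega
    · rw [hm]; exact dvd_pow_self 2 (by omega)
  obtain ⟨z0, hz0⟩ := exists_prime_orderOf_dvd_card' 2 hcd
  set z : G := ((z0 : (S : Subgroup G)) : G) with hzdef
  have hzS : z ∈ (S : Subgroup G) := (z0 : (S : Subgroup G)).2
  have hzz : z * z = 1 := by
    have h1 : z0 ^ 2 = 1 := orderOf_dvd_iff_pow_eq_one.1 (by rw [hz0])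
    rw [pow_two] at h1
    exact congrArg (fun a : center (S : Subgroup G) => ((a : (S : Subgroup G)) : G)) h1
  have hz1 : z ≠ 1 := by
    intro h
    have h1 : z0 = 1 := Subtype.ext (Subtype.ext h)
    rw [h1, orderOf_one] at hz0
    norm_num at hz0
  have hzc : ∀ s ∈ (S : Subgroup G), s * z = z * s := by
    intro s hs
    exact congrArg Subtype.val (mem_center_iff.1 z0.2 ⟨s, hs⟩)
  have hcent : centralizer ({z} : Set G) = (S : Subgroup G) := by
    apply le_antisymm
    · intro g hg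
      exact hz z hzS hz1 hzc g (mem_centralizer_singleton_iff.1 hg)
    · intro s hs
      exact mem_centralizer_singleton_iff.2 (hzc s hs)
  have h2 : (2 : F) ≠ 0 := H45.SL2.two_ne_zero_of_odd hF
  set w := H17.QuatPair.pr (H17.SL2Four.w F) with hw
  have hwA := H17.SL2Four.w_sq (F := F)
  have hw1 : w ≠ 1 := by
    rw [hw, Ne, H17.QuatPair.pr_eq_one]
    exact fun h => h.elim (H17.SL2Four.w_nonscalar h2).1 (H17.SL2Four.w_nonscalar h2).2
  have hww : w * w = 1 := by rw [hw, ← H17.QuatPair.pr_mul, hwA, H17.QuatPair.pr_neg_one]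
  obtain ⟨g, hg⟩ := H62.PSLF.pr_conj h2 (a := f z) (b := w) (by rw [← map_mul, hzz, map_one])
    (by rw [Ne, map_eq_one_iff f f.injective]; exact hz1) hww hw1
  set φ := f.trans (MulAut.conj g) with hφ
  have hφz : φ z = w := hg
  have hC : Nat.card (centralizer ({w} : Set (Matrix.ProjectiveSpecialLinearGroup (Fin 2) F))) = 128 := by
    have h5 : Nat.card (centralizer ({z} : Set G)) = 128 := by rw [hcent, hS]; norm_num
    rw [← h5]
    symm
    apply Nat.card_congr
    apply φ.toEquiv.subtypeEquiv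
    intro a
    rw [mem_centralizer_singleton_iff, mem_centralizer_singleton_iff, ← hφz]
    show a * z = z * a ↔ φ a * φ z = φ z * φ a
    rw [← map_mul, ← map_mul, φ.apply_eq_iff_eq]
  have h5 := Subgroup.card_mul_index (centralizer ({w} : Set (Matrix.ProjectiveSpecialLinearGroup (Fin 2) F)))
  rw [hC] at h5
  have h6 := H62.PSLG.card_psl hF
  obtain ⟨h7, h8⟩ := H62.PSLF.index_w (F := F) rfl hF
  set q := Fintype.card F with hq
  set idx := (centralizer ({w} : Set (Matrix.ProjectiveSpecialLinearGroup (Fin 2) F))).index with hidx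
  obtain ⟨k, hk⟩ : ∃ k, q = k + 1 := ⟨q - 1, by omega⟩
  have h9 : q ^ 2 - 1 = k * (k + 2) := by
    rw [hk, show (k + 1) ^ 2 = k * (k + 2) + 1 by ring, Nat.add_sub_cancel]
  rw [h9, ← h5] at h6
  have hq4 : q % 4 = 1 ∨ q % 4 = 3 := by
    obtain ⟨l, hl⟩ := hF
    omega
  rcases hq4 with h | h
  · exfalso
    have h10 := h7 h
    have h11 : q * (k + 2) * 128 = q * (k + 2) * k := by
      calc q * (k + 2) * 128 = 128 * (q * (q + 1)) := by rw [hk]; ring
        _ = 128 * (2 * idx) := by rw [h10]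
        _ = 2 * (128 * idx) := by ring
        _ = q * (k * (k + 2)) := h6
        _ = q * (k + 2) * k := by ring
    have h12 : k = 128 := (Nat.eq_of_mul_eq_mul_left (by positivity) h11).symm
    have h13 : IsPrimePow q := by
      have := Fintype.isPrimePow_card_of_field (α := F)
      exact this
    rw [hk, h12, isPrimePow_iff_unique_prime_dvd] at h13
    obtain ⟨p, -, hp⟩ := h13
    have e1 := hp 3 ⟨by norm_num, by norm_num⟩
    have e2 := hp 43 ⟨by norm_num, by norm_num⟩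
    omega
  · have h10 := h8 h
    have h11 : q * k * 128 = q * k * (k + 2) := by
      calc q * k * 128 = 128 * (q * (q - 1)) := by rw [hk, Nat.add_sub_cancel]; ring
        _ = 128 * (2 * idx) := by rw [h10]
        _ = 2 * (128 * idx) := by ring
        _ = q * (k * (k + 2)) := h6
        _ = q * k * (k + 2) := by ring
    have h12 : 128 = k + 2 := Nat.eq_of_mul_eq_mul_left (Nat.mul_pos (by omega) (by omega)) h11
    omega

/-- the endgame -/
theorem endgame_of [IsSimpleGroup G] (hG : ¬ IsMulCommutative G) (S : Sylow 2 G)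
    (hS : Nat.card ↥(S : Subgroup G) = 2 ^ 7)
    (hGW : (∃ n : ℕ, 2 ≤ n ∧ Nonempty ((S : Subgroup G) ≃* DihedralGroup n)) →
      (∃ (F : Type) (_ : Field F) (_ : Fintype F), Odd (Fintype.card F) ∧ 3 < Fintype.card F ∧
        Nonempty (G ≃* Matrix.ProjectiveSpecialLinearGroup (Fin 2) F)) ∨ Nonempty (G ≃* alternatingGroup (Fin 7)))
    (hBS : ∀ (n : ℕ) (e : (S : Subgroup G) ≃* QuaternionGroup (2 ^ (n + 1))),
      (∀ N : Subgroup G, N.Normal → Odd (Nat.card N) → N = ⊥) → Nat.card (Subgroup.center G) = 2)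
    (hz : ∀ z ∈ (S : Subgroup G), z ≠ 1 → (∀ s ∈ (S : Subgroup G), s * z = z * s) →
      ∀ g, g * z = z * g → g ∈ (S : Subgroup G))
    (h4 : ∀ U : Subgroup G, U ≤ S → (∀ s ∈ (S : Subgroup G), ∀ u ∈ U, s * u * s⁻¹ ∈ U) → Nat.card U = 4 →
      (∀ u ∈ U, u * u = 1) → False)
    (hess : ∀ T0 : Subgroup G, T0 ≤ (S : Subgroup G) → T0 ≠ (S : Subgroup G) →
      (∀ s ∈ (S : Subgroup G), ∀ t ∈ T0, s * t * s⁻¹ ∈ T0) →
      (∀ a ∈ (S : Subgroup G), ∀ b ∈ (S : Subgroup G), a ∉ T0 → b ∉ T0 → a * b ∈ T0) →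
      ∃ E : Subgroup G, E ≤ S ∧ ¬ E ≤ T0 ∧ (∀ c ∈ (S : Subgroup G), (∀ e ∈ E, c * e = e * c) → c ∈ E) ∧
        (∃ g ∈ Subgroup.normalizer (E : Set G), g ∉ (S : Subgroup G))) :
    ∃ (F : Type) (_ : Field F) (_ : Fintype F), Fintype.card F = 127 ∧
      Nonempty (G ≃* Matrix.ProjectiveSpecialLinearGroup (Fin 2) F) := by
  haveI : Fact (Nat.Prime 2) := ⟨Nat.prime_two⟩
  have h128 : 128 ∣ Nat.card G := by
    have := Subgroup.card_subgroup_dvd_card (S : Subgroup G)
    rwa [hS] at this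
  have hodd : ¬ Odd (Nat.card G) := by
    rw [Nat.not_odd_iff_even]
    exact even_iff_two_dvd.2 ((by norm_num : 2 ∣ 128).trans h128)
  -- not cyclic
  have hncyc : ¬ IsCyclic (S : Subgroup G) := by
    intro hc
    obtain ⟨H, hH⟩ := H5.IndexTwo.exists_index_two_of_cyclic_sylow (Nat.not_odd_iff_even.1 hodd) S hc
    have hHn : H.Normal := normal_of_index_eq_two hH
    rcases hHn.eq_bot_or_eq_top with h | h
    · rw [h, Subgroup.index_bot] at hH
      rw [hH] at h128
      norm_num at h128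
    · rw [h, Subgroup.index_top] at hH
      norm_num at hH
  rcases H11.NormalRankOne.classification S.2 hncyc (normal_cyclic S h4) with ⟨k, ⟨e⟩⟩ | ⟨k, ⟨e⟩⟩ | h
  · -- dihedral
    rcases hGW ⟨2 ^ (k + 3), (by norm_num : 2 ≤ 2 ^ 1).trans (Nat.pow_le_pow_right (by norm_num) (by omega)), ⟨e⟩⟩ with
      ⟨F, i1, i2, hF, h3, ⟨f⟩⟩ | ⟨⟨f⟩⟩
    · exact ⟨F, i1, i2, card_eq S hS hz hF h3 f, ⟨f⟩⟩
    · exfalso
      have h1 := Nat.card_congr f.toEquiv
      have h2 := two_mul_nat_card_alternatingGroup (α := Fin 7)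
      rw [Nat.card_perm, Nat.card_fin] at h2
      have h3 : Nat.card (alternatingGroup (Fin 7)) = 2520 := by
        have : Nat.factorial 7 = 5040 := by decide
        omega
      rw [h1, h3] at h128
      norm_num at h128
  · -- quaternion
    exfalso
    have h1 := hBS k e (by
      intro N hN ho
      rcases hN.eq_bot_or_eq_top with h | h
      · exact h
      · exfalso
        apply hodd
        rwa [h, Subgroup.card_top] at ho)
    have hcn : (center G).Normal := inferInstance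
    rcases hcn.eq_bot_or_eq_top with h | h
    · rw [h, Subgroup.card_bot] at h1
      norm_num at h1
    · apply hG
      refine ⟨⟨fun a b => ?_⟩⟩
      have ha : a ∈ center G := by rw [h]; trivial
      exact (mem_center_iff.1 ha b).symm
  · exact (no_semi S h hz hess).elim

end H27.L8
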